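import Cfsg.Agent.H39.SmithTyrer.Defs

/-!
# The kernel component `zeta` of the central extension

Lifts of commuting elements, one of which lies over `R`, commute; hence the square root in the
kernel of `k v k⁻¹ v`, for `k` inverting the image of `v`, does not depend on `k`.
-/

set_option autoImplicit false
set_option linter.unusedSectionVars false

namespace Cfsg.Agent.H58.SmithTyrer

open Cfsg.Agent.H39.SmithTyrer

universe u

variable {G : Type u} [Group G] [Fintype G] {p : ℕ} {D : Setup G p} (C : Cover D)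

/-- Elements of the kernel are central. -/
theorem ker_comm {z : C.Gh} (hz : C.π z = 1) (g : C.Gh) : g * z = z * g :=
  Subgroup.mem_center_iff.1 (C.ker_le (MonoidHom.mem_ker.2 hz)) g

/-- Elements of the kernel have order dividing `p`. -/
theorem ker_pow {z : C.Gh} (hz : C.π z = 1) : z ^ p = 1 := by
  have h := pow_card_eq_one' (G := C.π.ker) (x := ⟨z, MonoidHom.mem_ker.2 hz⟩)
  rw [C.ker_card] at h
  simpa using congrArg (fun y : C.π.ker => (y : C.Gh)) h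

/-- Squares are injective on the kernel. -/
theorem ker_sq_inj {z z' : C.π.ker} (h : (z : C.Gh) * z = (z' : C.Gh) * z') : z = z' := by
  obtain ⟨m, hm⟩ := D.hp.odd_of_ne_two D.odd
  have key : ∀ w : C.π.ker, ((w : C.Gh) * w) ^ (m + 1) = (w : C.Gh) := fun w => by
    have h1 := ker_pow C (MonoidHom.mem_ker.1 w.2)
    rw [← pow_two, ← pow_mul, show 2 * (m + 1) = p + 1 by omega, pow_succ, h1, one_mul]
  exact Subtype.ext (by rw [← key z, ← key z', h])

/-- Every element of the kernel is a square. -/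
theorem ker_exists_sq {w : C.Gh} (hw : C.π w = 1) :
    ∃ z : C.π.ker, (z : C.Gh) * z = w := by
  obtain ⟨m, hm⟩ := D.hp.odd_of_ne_two D.odd
  refine ⟨⟨w ^ (m + 1), MonoidHom.mem_ker.2 (by rw [map_pow, hw, one_pow])⟩, ?_⟩
  show w ^ (m + 1) * w ^ (m + 1) = w
  rw [← pow_add, show m + 1 + (m + 1) = p + 1 by omega, pow_succ, ker_pow C hw, one_mul]

theorem commute_of_mem_R {a b : C.Gh} (ha : C.π a ∈ C.R) (h : Commute (C.π a) (C.π b)) :
    Commute a b := by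
  have : Fact p.Prime := ⟨D.hp⟩
  obtain ⟨y, hy, -, -, hreg⟩ := pp_spec (p := p) b
  obtain ⟨i, hi⟩ := H40.exists_pow_eq_of_isPPart (pp_spec (p := p) b)
  have h1 : Commute (C.π a) (C.π (pp p b)) := by rw [← hi, map_pow]; exact h.pow_right i
  have h2 : Commute (C.π a) (C.π y) := by
    have e : y = (pp p b)⁻¹ * b := by rw [eq_inv_mul_iff_mul_eq, hy]
    rw [e, map_mul, map_inv]
    exact h1.inv_right.mul_right h
  rw [← hy]
  refine Commute.mul_right ?_ ?_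
  · -- the `p`-part: move it into `P` inside the centraliser of `π a`
    set x := C.π a with hx
    set Cx := Subgroup.centralizer ({x} : Set G)
    have hmem : ∀ g : G, g ∈ Cx ↔ x * g = g * x := fun g => by
      refine ⟨fun hg => hg x rfl, fun hg => ?_⟩
      rintro w rfl
      exact hg
    have hP : (D.P : Subgroup G) ≤ Cx := fun g hg => (hmem g).2 (D.comm x (C.R_le ha) g hg)
    let P' : Sylow p ↥Cx := D.P.subtype hP
    have hyC : C.π (pp p b) ∈ Cx := (hmem _).2 h1.eq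
    have hpg : IsPGroup p (Subgroup.zpowers (⟨C.π (pp p b), hyC⟩ : ↥Cx)) := by
      obtain ⟨-, -, -, ⟨j, hj⟩, -⟩ := pp_spec (p := p) b
      obtain ⟨n, -, hn⟩ := (Nat.dvd_prime_pow D.hp).1 (hj ▸ orderOf_map_dvd C.π (pp p b))
      refine IsPGroup.of_card (n := n) ?_
      rw [Nat.card_zpowers, ← Subgroup.orderOf_coe]
      exact hn
    obtain ⟨Q, hQ⟩ := hpg.exists_le_sylow
    obtain ⟨c, hc⟩ := MulAction.exists_smul_eq ↥Cx Q P'
    have hc' : (c : G) * C.π (pp p b) * (c : G)⁻¹ ∈ (D.P : Subgroup G) := by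
      have h3 : c * ⟨C.π (pp p b), hyC⟩ * c⁻¹ ∈ (P' : Subgroup ↥Cx) := by
        rw [← hc, Sylow.coe_subgroup_smul]
        exact Subgroup.smul_mem_pointwise_smul _ (MulAut.conj c) (Q : Subgroup ↥Cx)
          (hQ (Subgroup.mem_zpowers _))
      simpa [P', Subgroup.mem_subgroupOf] using h3
    obtain ⟨d, hd⟩ := C.surj (c : G)
    have h4 : Commute a (d * pp p b * d⁻¹) :=
      C.comm a _ ha (by rw [map_mul, map_mul, map_inv, hd]; exact hc')
    have hz : C.π (d⁻¹ * a * d * a⁻¹) = 1 := by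
      have h5 : x * (c : G) = (c : G) * x := (hmem _).1 c.2
      rw [map_mul, map_mul, map_mul, map_inv, map_inv, hd, ← hx, mul_assoc (c : G)⁻¹ x, h5]
      group
    have h5 : Commute (d⁻¹ * a * d * a⁻¹) (pp p b) := (ker_comm C hz _).symm
    have h6 : Commute (d⁻¹ * a * d) (pp p b) := by
      have h6 := h4.map (MulAut.conj d⁻¹).toMonoidHom
      simpa [mul_assoc] using h6
    have h7 := h5.inv_left.mul_left h6
    rwa [show (d⁻¹ * a * d * a⁻¹)⁻¹ * (d⁻¹ * a * d) = a by group] at h7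
  · -- the `p`-regular part
    have hz : C.π (a * y * a⁻¹ * y⁻¹) = 1 := by
      rw [map_mul, map_mul, map_mul, map_inv, map_inv, h2.eq]
      group
    set z := a * y * a⁻¹ * y⁻¹ with hzdef
    have e : a * y * a⁻¹ = z * y := by rw [hzdef]; group
    have h3 : z ^ orderOf y = 1 := by
      have h4 : (z * y) ^ orderOf y = 1 := by
        rw [← e, conj_pow, pow_orderOf_eq_one]; group
      have hzc : Commute z y := (ker_comm C hz y).symm
      rwa [hzc.mul_pow, pow_orderOf_eq_one, mul_one] at h4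
    have h5 : z = 1 := by
      have h6 : z ^ (Nat.gcd p (orderOf y)) = 1 := pow_gcd_eq_one.2 ⟨ker_pow C hz, h3⟩
      rwa [((D.hp.coprime_iff_not_dvd).2 hreg).gcd_eq_one, pow_one] at h6
    rw [h5, one_mul] at e
    exact mul_inv_eq_iff_eq_mul.1 e

/-- Lifts of elements conjugate into `R` commute with the lifts of their centralisers. -/
theorem commute_of_conj_mem_R {v c : C.Gh} (hv : ∃ h : G, h * C.π v * h⁻¹ ∈ C.R)
    (hc : Commute (C.π v) (C.π c)) : Commute v c := by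
  obtain ⟨h, hh⟩ := hv
  obtain ⟨u, rfl⟩ := C.surj h
  have h1 : Commute (u * v * u⁻¹) (u * c * u⁻¹) := by
    refine commute_of_mem_R C (by simpa using hh) ?_
    simp only [map_mul, map_inv]
    exact hc.map (MulAut.conj (C.π u)).toMonoidHom
  have h2 := h1.map (MulAut.conj u⁻¹).toMonoidHom
  simpa [mul_assoc] using h2

/-- An element conjugate into `R` is inverted. -/
theorem exists_inverting {v : C.Gh} (hv : ∃ h : G, h * C.π v * h⁻¹ ∈ C.R) :
    ∃ k : C.Gh, C.π (k * v * k⁻¹ * v) = 1 := by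
  obtain ⟨h, hh⟩ := hv
  obtain ⟨k, hk⟩ := C.surj (h⁻¹ * D.t * h)
  refine ⟨k, ?_⟩
  have h1 := D.inv _ (C.R_le hh)
  rw [map_mul, map_mul, map_mul, map_inv, hk]
  have e : h⁻¹ * D.t * h * C.π v * (h⁻¹ * D.t * h)⁻¹ = h⁻¹ * (D.t * (h * C.π v * h⁻¹) * D.t⁻¹) * h := by
    group
  rw [e, h1]
  group

theorem zeta_spec {v : C.Gh} (hv : ∃ h : G, h * C.π v * h⁻¹ ∈ C.R) :
    ∃ k : C.Gh, C.π (k * v * k⁻¹ * v) = 1 ∧
      (C.zeta v : C.Gh) * C.zeta v = k * v * k⁻¹ * v := by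
  classical
  obtain ⟨k, hk⟩ := exists_inverting C hv
  obtain ⟨z, hz⟩ := ker_exists_sq C hk
  have h : ∃ z : C.π.ker, ∃ k : C.Gh, C.π (k * v * k⁻¹ * v) = 1 ∧
      (z : C.Gh) * (z : C.Gh) = k * v * k⁻¹ * v := ⟨z, k, hk, hz⟩
  rw [Cover.zeta, dif_pos h]
  exact h.choose_spec

theorem zeta_eq {v k : C.Gh} (z : C.π.ker) (hv : ∃ h : G, h * C.π v * h⁻¹ ∈ C.R)
    (hk : C.π (k * v * k⁻¹ * v) = 1) (hz : (z : C.Gh) * z = k * v * k⁻¹ * v) :
    C.zeta v = z := by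
  obtain ⟨k', hk', hz'⟩ := zeta_spec C hv
  refine ker_sq_inj C ?_
  rw [hz', hz]
  have hc : Commute v (k⁻¹ * k') := by
    refine commute_of_conj_mem_R C hv ?_
    simp only [map_mul, map_inv] at hk hk' ⊢
    have e : C.π k * C.π v * (C.π k)⁻¹ = C.π k' * C.π v * (C.π k')⁻¹ :=
      (eq_inv_of_mul_eq_one_left hk).trans (eq_inv_of_mul_eq_one_left hk').symm
    calc C.π v * ((C.π k)⁻¹ * C.π k')
        = (C.π k)⁻¹ * (C.π k * C.π v * (C.π k)⁻¹) * C.π k' := by group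
      _ = (C.π k)⁻¹ * (C.π k' * C.π v * (C.π k')⁻¹) * C.π k' := by rw [e]
      _ = (C.π k)⁻¹ * C.π k' * C.π v := by group
  calc k' * v * k'⁻¹ * v = k * ((k⁻¹ * k') * v) * k'⁻¹ * v := by group
    _ = k * (v * (k⁻¹ * k')) * k'⁻¹ * v := by rw [hc.eq]
    _ = k * v * k⁻¹ * v := by group

theorem zeta_of_inverted {v k : C.Gh} (hv : ∃ h : G, h * C.π v * h⁻¹ ∈ C.R)
    (h : k * v * k⁻¹ = v⁻¹) : C.zeta v = 1 :=
  zeta_eq C 1 hv (by rw [h, inv_mul_cancel, map_one])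
    (by rw [h, inv_mul_cancel, OneMemClass.coe_one, one_mul])

theorem zeta_of_map_eq_one {v : C.Gh} (hv : C.π v = 1) : (C.zeta v : C.Gh) = v := by
  rw [zeta_eq C ⟨v, MonoidHom.mem_ker.2 hv⟩ ⟨1, by rw [hv]; simp⟩ (k := 1) (by simp [hv])
    (by simp)]

theorem zeta_mul {a b : C.Gh} (ha : C.π a ∈ C.R) (hb : C.π b ∈ C.R) :
    C.zeta (a * b) = C.zeta a * C.zeta b := by
  obtain ⟨k, hk⟩ := C.surj D.t
  have hself : ∀ {v : C.Gh}, C.π v ∈ C.R → ∃ h : G, h * C.π v * h⁻¹ ∈ C.R :=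
    fun hv => ⟨1, by simpa using hv⟩
  have hinv : ∀ {v : C.Gh}, C.π v ∈ C.R → C.π (k * v * k⁻¹ * v) = 1 := fun {v} hv => by
    rw [map_mul, map_mul, map_mul, map_inv, hk, D.inv _ (C.R_le hv), inv_mul_cancel]
  obtain ⟨za, hza⟩ := ker_exists_sq C (hinv ha)
  obtain ⟨zb, hzb⟩ := ker_exists_sq C (hinv hb)
  have hab : C.π (a * b) ∈ C.R := by rw [map_mul]; exact mul_mem ha hb
  rw [zeta_eq C za (hself ha) (hinv ha) hza, zeta_eq C zb (hself hb) (hinv hb) hzb]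
  refine zeta_eq C (za * zb) (hself hab) (hinv hab) ?_
  have hcb : a * b = b * a := C.comm a b ha (C.R_le hb)
  have hzz : (zb : C.Gh) * za = za * zb := ker_comm C (MonoidHom.mem_ker.1 za.2) _
  show (za : C.Gh) * zb * (za * zb) = _
  calc (za : C.Gh) * zb * (za * zb) = za * (zb * za) * zb := by group
    _ = (za * za) * (zb * zb) := by rw [hzz]; group
    _ = k * a * k⁻¹ * a * (k * b * k⁻¹ * b) := by rw [hza, hzb]
    _ = k * a * k⁻¹ * (a * (k * b * k⁻¹ * b)) := by group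
    _ = k * a * k⁻¹ * ((k * b * k⁻¹ * b) * a) := by rw [ker_comm C (hinv hb) a]
    _ = k * a * k⁻¹ * (k * b * k⁻¹) * (b * a) := by group
    _ = k * (a * b) * k⁻¹ * (a * b) := by rw [← hcb]; group

theorem zeta_conj (u : C.Gh) {v : C.Gh} (hv : ∃ h : G, h * C.π v * h⁻¹ ∈ C.R) :
    C.zeta (u * v * u⁻¹) = C.zeta v := by
  obtain ⟨k, hk, hz⟩ := zeta_spec C hv
  have e : u * k * u⁻¹ * (u * v * u⁻¹) * (u * k * u⁻¹)⁻¹ * (u * v * u⁻¹) = k * v * k⁻¹ * v := by
    calc u * k * u⁻¹ * (u * v * u⁻¹) * (u * k * u⁻¹)⁻¹ * (u * v * u⁻¹)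
        = u * (k * v * k⁻¹ * v) * u⁻¹ := by group
      _ = k * v * k⁻¹ * v := by rw [ker_comm C hk u]; group
  refine zeta_eq C (C.zeta v) ?_ (k := u * k * u⁻¹) (by rw [e]; exact hk) (by rw [e]; exact hz)
  obtain ⟨h, hh⟩ := hv
  refine ⟨h * (C.π u)⁻¹, ?_⟩
  rwa [map_mul, map_mul, map_inv,
    show h * (C.π u)⁻¹ * (C.π u * C.π v * (C.π u)⁻¹) * (h * (C.π u)⁻¹)⁻¹ = h * C.π v * h⁻¹ by group]

theorem psi_isClassFunction (ω : C.π.ker →* ℂˣ) {φ : G → ℂ} (hφ : Cfsg.IsClassFunction G φ) :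
    Cfsg.IsClassFunction C.Gh (C.psi ω φ) := by
  have : Fact p.Prime := ⟨D.hp⟩
  intro g u
  have hpi : C.π (u * g * u⁻¹) = C.π u * C.π g * (C.π u)⁻¹ := by simp
  have hiff : Cover.InSec p C.R (C.π (u * g * u⁻¹)) ↔ Cover.InSec p C.R (C.π g) := by
    rw [hpi, Cover.InSec, Cover.InSec, pp_conj]
    constructor
    · rintro ⟨h, hh⟩
      refine ⟨h * C.π u, ?_⟩
      rwa [show h * C.π u * pp p (C.π g) * (h * C.π u)⁻¹
        = h * (C.π u * pp p (C.π g) * (C.π u)⁻¹) * h⁻¹ by group]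
    · rintro ⟨h, hh⟩
      refine ⟨h * (C.π u)⁻¹, ?_⟩
      rwa [show h * (C.π u)⁻¹ * (C.π u * pp p (C.π g) * (C.π u)⁻¹) * (h * (C.π u)⁻¹)⁻¹
        = h * pp p (C.π g) * h⁻¹ by group]
  unfold Cover.psi
  by_cases hg : Cover.InSec p C.R (C.π g)
  · rw [if_pos hg, if_pos (hiff.2 hg), pp_conj, hpi, hφ]
    obtain ⟨h, hh⟩ := hg
    rw [zeta_conj C u ⟨h, by rw [← pp_map]; exact hh⟩]
  · rw [if_neg hg, if_neg (fun hh => hg (hiff.1 hh))]

end Cfsg.Agent.H58.SmithTyrer
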