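import Cfsg.Agent.H39.SmithTyrer.Tools

/-!
# The nontrivial linear characters of `P` trivial on `R`
-/

set_option autoImplicit false
set_option linter.unusedSectionVars false

namespace Cfsg.Agent.H58.SmithTyrer

open Cfsg.Agent.H39.SmithTyrer

universe u

variable {G : Type u} [Group G] [Fintype G] {p : ℕ}

open scoped Classical in
theorem exists_dual_family {D : Setup G p} (C : Cover D) :
    ∃ s : Finset (↥(D.P : Subgroup G) →* ℂˣ), s.card = p ^ 2 - 1 ∧
      (∀ ν ∈ s, ν ≠ 1 ∧ ∀ x : ↥(D.P : Subgroup G), (x : G) ∈ C.R → ν x = 1) ∧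
      ∀ g : G, 2 * (p : ℂ) ^ 2 * (if Cover.InSec p C.R g then 0 else 1) = ∑ ν ∈ s, D.F ν g := by
  let _ : CommGroup ↥(D.P : Subgroup G) :=
    { mul_comm := fun a b => Subtype.ext (D.comm a a.2 b b.2) }
  set N := C.R.subgroupOf (D.P : Subgroup G) with hN
  let A := ↥(D.P : Subgroup G) ⧸ N
  have hA : Nat.card A = p ^ 2 := C.R_index
  haveI : NeZero (Monoid.exponent A) := ⟨Monoid.exponent_ne_zero_of_finite⟩
  have hdual : Nat.card (A →* ℂˣ) = p ^ 2 :=
    (CommGroup.card_monoidHom_of_hasEnoughRootsOfUnity A ℂ).trans hA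
  haveI : Finite (A →* ℂˣ) :=
    Nat.finite_of_card_ne_zero (by rw [hdual]; exact pow_ne_zero 2 D.hp.ne_zero)
  letI := Fintype.ofFinite (A →* ℂˣ)
  have hinj : Function.Injective fun φ : A →* ℂˣ => φ.comp (QuotientGroup.mk' N) := fun φ ψ h =>
    MonoidHom.ext fun a => by
      obtain ⟨x, rfl⟩ := QuotientGroup.mk'_surjective N a
      exact DFunLike.congr_fun h x
  refine ⟨(Finset.univ.erase 1).map ⟨_, hinj⟩, ?_, ?_, fun g => ?_⟩
  · rw [Finset.card_map, Finset.card_erase_of_mem (Finset.mem_univ _), Finset.card_univ,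
      ← Nat.card_eq_fintype_card, hdual]
  · intro ν hν
    obtain ⟨φ, hφ, rfl⟩ := Finset.mem_map.1 hν
    refine ⟨fun h => (Finset.mem_erase.1 hφ).1 (hinj (h.trans (MonoidHom.one_comp _).symm)),
      fun x hx => ?_⟩
    show φ (QuotientGroup.mk' N x) = 1
    rw [QuotientGroup.mk'_apply, (QuotientGroup.eq_one_iff x).2
      (Subgroup.mem_subgroupOf.2 hx), map_one]
  · rw [Finset.sum_map]
    by_cases hg : Cover.InSec p C.R g
    · rw [if_pos hg, mul_zero]
      refine (Finset.sum_eq_zero fun φ _ => ?_).symm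
      have hr := (D.inSec_iff C.R_le g).1 hg
      unfold Setup.F Setup.ext
      by_cases h1 : pp p g = 1
      · rw [if_pos h1]
      · rw [if_neg h1]
        show (2 : ℂ) - (φ (QuotientGroup.mk' N (D.rep g)) : ℂ)
          - (φ (QuotientGroup.mk' N (D.rep g)⁻¹) : ℂ) = 0
        rw [QuotientGroup.mk'_apply, QuotientGroup.mk'_apply,
          (QuotientGroup.eq_one_iff _).2 (Subgroup.mem_subgroupOf.2 hr),
          (QuotientGroup.eq_one_iff _).2 (Subgroup.mem_subgroupOf.2 (inv_mem hr))]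
        simp; ring
    · rw [if_neg hg, mul_one]
      have hr : (D.rep g : G) ∉ C.R := fun h => hg ((D.inSec_iff C.R_le g).2 h)
      have h1 : pp p g ≠ 1 := fun h =>
        hr (by rw [(D.rep_eq_one_iff g).2 h]; exact one_mem _)
      set a : A := QuotientGroup.mk' N (D.rep g) with ha
      have ha1 : a ≠ 1 := fun h =>
        hr (Subgroup.mem_subgroupOf.1 ((QuotientGroup.eq_one_iff _).1 h))
      have hval : ∀ φ : A →* ℂˣ,
          D.F ((⟨_, hinj⟩ : (A →* ℂˣ) ↪ _) φ) g = 2 - (φ a : ℂ) - (φ a⁻¹ : ℂ) := fun φ => by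
        unfold Setup.F Setup.ext
        rw [if_neg h1]
        show (2 : ℂ) - (φ (QuotientGroup.mk' N (D.rep g)) : ℂ)
          - (φ (QuotientGroup.mk' N (D.rep g)⁻¹) : ℂ) = _
        rw [map_inv]
      rw [Finset.sum_congr rfl fun φ _ => hval φ,
        Finset.sum_erase Finset.univ (by simp; ring), Finset.sum_sub_distrib,
        Finset.sum_sub_distrib, Finset.sum_const, Finset.card_univ, ← Nat.card_eq_fintype_card,
        hdual, sum_hom_apply, sum_hom_apply, if_neg ha1, if_neg (by simpa using ha1), nsmul_eq_mul]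
      push_cast
      ring

end Cfsg.Agent.H58.SmithTyrer
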